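import Cfsg.Agent.Lib.EqualOrder.RankThreeLocal

/-!
Conjugate subgroups of equal order: the Sylow subgroup for the odd prime of the centraliser of an
involution is cyclic.
-/

set_option autoImplicit false

namespace CfsgLib.EqualOrder

universe u

variable {R : Type u} [Group R]

local notation "CG(" x ")" => Subgroup.centralizer ({x} : Set _)

/-- An element of odd order lies in every subgroup of index two. -/
theorem mem_of_index_two [Finite R] {H : Subgroup R} (hH : H.index = 2) {x : R}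
    (hx : Odd (orderOf x)) : x ∈ H := by
  have h2 := Subgroup.sq_mem_of_index_two hH x
  obtain ⟨m, hm⟩ := exists_pow_eq_self_of_coprime (Nat.coprime_two_left.2 hx)
  rw [← hm]
  exact pow_mem h2 m

namespace Ctx

variable [Finite R] [Fact (Nat.Prime 2)] {S : Sylow 2 R} {e : ℕ} {K : Subgroup R}
  (c : Ctx S e K) [he : Fact e.Prime] (he2 : e ≠ 2)
include c he2

/-- An element of `e`-power order centralising an involution and lying outside `K`. -/
theorem exists_sigma {t : R} (ht : t ∈ (S : Subgroup R)) (h1 : t ≠ 1) :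
    ∃ w ∈ CG(t), w ∉ K ∧ ∃ k, orderOf w = e ^ k := by
  haveI : (K.subgroupOf CG(t)).Normal :=
    Subgroup.normal_subgroupOf_of_le_normalizer ((c.centralizer_le ht h1).trans c.norm)
  have h2 := (K.subgroupOf CG(t)).card_mul_index
  rw [Nat.card_congr (Subgroup.subgroupOfEquivOfLe (c.le_centralizer ht)).toEquiv,
    c.card t ht h1, mul_assoc] at h2
  have hidx := Nat.eq_of_mul_eq_mul_left Nat.card_pos h2
  obtain ⟨q, hq⟩ := exists_prime_orderOf_dvd_card' (G := CG(t) ⧸ K.subgroupOf CG(t)) e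
    (by rw [← Subgroup.index_eq_card, hidx]; exact dvd_mul_left e _)
  obtain ⟨⟨σ, hσ⟩, rfl⟩ := QuotientGroup.mk_surjective q
  obtain ⟨a, m, hm, ham⟩ := Nat.exists_eq_pow_mul_and_not_dvd (orderOf_pos σ).ne' e he.out.ne_one
  refine ⟨σ ^ m, pow_mem hσ m, fun hK => hm ?_, a, ?_⟩
  · rw [← hq]
    refine orderOf_dvd_of_pow_eq_one ?_
    rw [← QuotientGroup.mk_pow, QuotientGroup.eq_one_iff, Subgroup.mem_subgroupOf,
      Subgroup.coe_pow]
    exact hK
  · rw [orderOf_pow, ham, Nat.gcd_mul_left_left]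
    exact Nat.mul_div_cancel _ (Nat.pos_of_ne_zero fun h => hm (by rw [h]; exact dvd_zero e))

/-- An element of order `e` of the centraliser outside `K` fixes only one involution of `S`. -/
theorem eq_of_commute (hpr : (Nat.card (S : Subgroup R) - 1).Prime)
    (hS : ∀ w : R, w ∈ Subgroup.normalizer ((S : Subgroup R) : Set R) →
      (∀ s ∈ (S : Subgroup R), Commute w s) → orderOf w = e → w ∈ K)
    {t w : R} (ht : t ∈ (S : Subgroup R)) (h1 : t ≠ 1) (hw : w ∈ CG(t)) (hwK : w ∉ K)
    (hwo : orderOf w = e) {s : R} (hs : s ∈ (S : Subgroup R)) (hs1 : s ≠ 1)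
    (hws : Commute w s) : s = t := by
  classical
  have hwN := c.centralizer_le ht h1 hw
  set L := Subgroup.zpowers w ⊔ (K ⊔ (S : Subgroup R)) with hL
  have hSK : (S : Subgroup R) ≤ Subgroup.normalizer (K : Set R) :=
    Subgroup.le_normalizer.trans c.norm
  have hKSinf : K ⊓ (S : Subgroup R) = ⊥ := Subgroup.inf_eq_bot_of_coprime (by
    obtain ⟨n, hn⟩ := IsPGroup.iff_card.1 S.2
    rw [hn]
    exact (Nat.coprime_two_right.2 c.odd).pow_right n)
  have hKS : Nat.card ↥(K ⊔ (S : Subgroup R)) = Nat.card K * Nat.card (S : Subgroup R) := by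
    have h := ThompsonJ.card_sup_mul_card_inf (S : Subgroup R) K hSK
    rw [inf_comm, hKSinf, Subgroup.card_bot, mul_one, sup_comm] at h
    rw [h, mul_comm]
  have hwKS : w ∉ K ⊔ (S : Subgroup R) := by
    intro hm
    obtain ⟨k, hk, v, hv, rfl⟩ : ∃ k ∈ K, ∃ v ∈ (S : Subgroup R), k * v = w := by
      rw [← SetLike.mem_coe, Subgroup.coe_mul_of_right_le_normalizer_left _ _ hSK,
        Set.mem_mul] at hm
      exact hm
    have hodd : Odd e := he.out.odd_of_ne_two he2
    have h2 : v ^ e = (k ^ e)⁻¹ := by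
      rw [eq_inv_iff_mul_eq_one]
      have h3 : (k * v) ^ e = 1 := by rw [← hwo, pow_orderOf_eq_one]
      rw [(c.cent k hk v hv).mul_pow] at h3
      rw [((c.cent k hk v hv).pow_pow e e).eq] at h3
      exact h3
    have h6 : v ^ e ∈ K := by rw [h2]; exact K.inv_mem (pow_mem hk e)
    have h4 : v ^ e ∈ K ⊓ (S : Subgroup R) := ⟨h6, pow_mem hv e⟩
    rw [hKSinf, Subgroup.mem_bot] at h4
    have h5 : v = 1 := by
      rw [← orderOf_eq_one_iff]
      exact Nat.eq_one_of_dvd_coprimes (Nat.coprime_two_left.2 hodd)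
        (orderOf_dvd_of_pow_eq_one (c.exp v hv)) (orderOf_dvd_of_pow_eq_one h4)
    rw [h5, mul_one] at hwK
    exact hwK hk
  have hnorm : ∀ x ∈ K ⊔ (S : Subgroup R), w * x * w⁻¹ ∈ K ⊔ (S : Subgroup R) := by
    intro x hx
    have hle : (K ⊔ (S : Subgroup R)).map (MulAut.conj w).toMonoidHom ≤ K ⊔ (S : Subgroup R) := by
      rw [Subgroup.map_sup]
      refine sup_le_sup ?_ ?_
      · rintro _ ⟨y, hy, rfl⟩
        exact (Subgroup.mem_normalizer_iff.1 (c.norm hwN) y).1 hy
      · rintro _ ⟨y, hy, rfl⟩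
        exact (Subgroup.mem_normalizer_iff.1 hwN y).1 hy
    exact hle ⟨x, hx, rfl⟩
  have hLc : Nat.card L = Nat.card K * Nat.card (S : Subgroup R) * e := by
    rw [hL, sup_comm, PConjugate.card_sup_zpowers hwo hwKS hnorm, hKS]
  have hcent : ∀ u ∈ (S : Subgroup R), u ≠ 1 → Commute w u → CG(u) = L := by
    intro u hu hu1 hwu
    refine (Subgroup.eq_of_le_of_card_ge (sup_le ?_ (sup_le (c.le_centralizer hu) ?_)) ?_).symm
    · exact Subgroup.zpowers_le.2 (Subgroup.mem_centralizer_singleton_iff.2 hwu.eq)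
    · exact fun v hv => Subgroup.mem_centralizer_singleton_iff.2 (c.commute hv hu).eq
    · rw [c.card u hu hu1, hLc]
  have hwt : Commute w t := Subgroup.mem_centralizer_singleton_iff.1 hw
  let X := {u : (S : Subgroup R) // u ≠ 1}
  let f : X → Subgroup R := fun u => CG((u.1 : R))
  set a := Nat.card {u : X // f u = L}
  have hfib : ∀ H : Set.range f, Nat.card {u : X // f u = (H : Subgroup R)} = a := by
    rintro ⟨_, ⟨⟨u, hu⟩, rfl⟩⟩
    have hu1 : (u : R) ≠ 1 := fun h => hu (Subtype.ext h)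
    obtain ⟨m, hm, hmu⟩ := c.exists_normalizer_conj u.2 hu1 ht h1
    let g : X → X := fun v => ⟨⟨m * (v.1 : R) * m⁻¹, (Subgroup.mem_normalizer_iff.1 hm _).1 v.1.2⟩,
      fun h => v.2 (Subtype.ext (conj_eq_one_iff.1 (congrArg Subtype.val h)))⟩
    have hg : Function.Injective g := fun v v' h => by
      have h' : m * (v.1 : R) * m⁻¹ = m * (v'.1 : R) * m⁻¹ :=
        congrArg (fun z : X => ((z.1 : (S : Subgroup R)) : R)) h
      exact Subtype.ext (Subtype.ext (mul_left_cancel (mul_right_cancel h')))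
    let gi : X ≃ X := Equiv.ofBijective g (Finite.injective_iff_bijective.1 hg)
    have hmap : ∀ v : X, f (g v) = (f v).map (MulAut.conj m).toMonoidHom := by
      intro v
      ext z
      simp only [f, g, Subgroup.mem_centralizer_singleton_iff, Subgroup.mem_map]
      constructor
      · intro hz
        refine ⟨m⁻¹ * z * m, ?_, by simp [MulAut.conj_apply, mul_assoc]⟩
        calc m⁻¹ * z * m * (v.1 : R) = m⁻¹ * (z * (m * (v.1 : R) * m⁻¹)) * m := by group
          _ = (v.1 : R) * (m⁻¹ * z * m) := by rw [hz]; group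
      · rintro ⟨y, hy, rfl⟩
        show m * y * m⁻¹ * (m * (v.1 : R) * m⁻¹) = m * (v.1 : R) * m⁻¹ * (m * y * m⁻¹)
        calc m * y * m⁻¹ * (m * (v.1 : R) * m⁻¹) = m * (y * (v.1 : R)) * m⁻¹ := by group
          _ = _ := by rw [hy]; group
    have hgu : f (g ⟨u, hu⟩) = L := by
      show CG(m * (u : R) * m⁻¹) = L
      rw [hmu]
      exact hcent t ht h1 hwt
    refine Nat.card_congr (gi.subtypeEquiv fun v => ?_)
    show f v = f ⟨u, hu⟩ ↔ f (g v) = L
    rw [← hgu, hmap, hmap]
    exact ⟨fun h => by rw [h], fun h => Subgroup.map_injective (MulAut.conj m).injective h⟩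
  have hsum : Nat.card X = Nat.card (Set.range f) * a := by
    haveI := Fintype.ofFinite (Set.range f)
    rw [← Nat.card_congr (Equiv.sigmaFiberEquiv (Set.rangeFactorization f)), Nat.card_sigma]
    rw [Finset.sum_congr rfl (fun H _ => ?_), Finset.sum_const, Finset.card_univ, smul_eq_mul,
      Nat.card_eq_fintype_card]
    rw [← hfib H]
    exact Nat.card_congr (Equiv.subtypeEquivRight fun v => Subtype.ext_iff)
  have hX : Nat.card X = Nat.card (S : Subgroup R) - 1 := by
    haveI := Fintype.ofFinite (S : Subgroup R)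
    rw [Nat.card_eq_fintype_card, Nat.card_eq_fintype_card, Fintype.card_subtype_compl,
      Fintype.card_subtype_eq]
  rcases hpr.eq_one_or_self_of_dvd a (hX ▸ hsum ▸ dvd_mul_left a _) with ha | ha
  · -- only `t`
    have hmem : ∀ u (hu : u ∈ (S : Subgroup R)) (hu1 : u ≠ 1), Commute w u →
        f ⟨⟨u, hu⟩, fun h => hu1 (congrArg Subtype.val h)⟩ = L := hcent
    obtain ⟨hsub, -⟩ := Nat.card_eq_one_iff_unique.1 ha
    have := congrArg (fun z : {u : X // f u = L} => ((z.1.1 : (S : Subgroup R)) : R))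
      (hsub.elim ⟨_, hmem s hs hs1 hws⟩ ⟨_, hmem t ht h1 hwt⟩)
    exact this
  · -- `w` centralises `S`
    exfalso
    refine hwK (hS w hwN (fun u hu => ?_) hwo)
    by_cases hu1 : u = 1
    · rw [hu1]; exact Commute.one_right w
    have hall : ∀ v : X, f v = L := by
      intro v
      by_contra hv
      have : a < Nat.card X := by
        haveI := Fintype.ofFinite X
        rw [Nat.card_eq_fintype_card, show a = Fintype.card {u : X // f u = L} from
          Nat.card_eq_fintype_card]
        exact Fintype.card_subtype_lt hv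
      omega
    have hwL : w ∈ L := Subgroup.mem_sup_left (Subgroup.mem_zpowers w)
    have hh := hall ⟨⟨u, hu⟩, fun h => hu1 (congrArg Subtype.val h)⟩
    change CG(u) = L at hh
    rw [← hh, Subgroup.mem_centralizer_singleton_iff] at hwL
    exact hwL

/-- The Sylow `e`-subgroups are cyclic. -/
theorem sylow_cyclic (hpr : (Nat.card (S : Subgroup R) - 1).Prime)
    (hS : ∀ w : R, w ∈ Subgroup.normalizer ((S : Subgroup R) : Set R) →
      (∀ s ∈ (S : Subgroup R), Commute w s) → orderOf w = e → w ∈ K)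
    (P : Sylow e R) : IsCyclic P := by
  classical
  rcases PConjugate.odd_shape (c.all.conjEq 2) he2 (c.all.conjEq e) P with hP | hP
  · exact hP
  obtain ⟨t, ht, h1⟩ := c.exists_involution
  have hexp : ∀ {x : R} {k : ℕ}, orderOf x = e ^ k → x ^ e = 1 := by
    intro x k hx
    obtain ⟨T, hT⟩ := (IsPGroup.of_card (p := e) (n := k)
      ((Nat.card_zpowers x).trans hx)).exists_le_sylow
    have h := hP.2 _ (T.equiv P ⟨x, hT (Subgroup.mem_zpowers x)⟩).2
    have h2 : T.equiv P (⟨x, hT (Subgroup.mem_zpowers x)⟩ ^ e) = 1 := by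
      rw [map_pow]; exact Subtype.ext (by rw [Subgroup.coe_pow]; exact h)
    exact congrArg Subtype.val ((map_eq_one_iff _ (T.equiv P).injective).1 h2)
  obtain ⟨w, hw, hwK, k, hk⟩ := c.exists_sigma he2 ht h1
  have hwo : orderOf w = e := orderOf_eq_prime (hexp hk) fun h => hwK (h ▸ one_mem K)
  have hwt : Commute w t := Subgroup.mem_centralizer_singleton_iff.1 hw
  -- Sylow 2-subgroups of the centraliser of `w` have order two
  have hT2 : ∀ T : Subgroup R, T ≤ CG(w) → IsPGroup 2 T → t ∈ T → Nat.card T ≤ 2 := by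
    intro T hT hTp htT
    have hTS : T ≤ (S : Subgroup R) := by
      intro u hu
      obtain ⟨n, hn⟩ := IsPGroup.iff_orderOf.1 hTp ⟨u, hu⟩
      rw [Subgroup.orderOf_mk] at hn
      obtain ⟨n', hn'⟩ := IsPGroup.iff_orderOf.1 hTp ⟨u * t, mul_mem hu htT⟩
      rw [Subgroup.orderOf_mk] at hn'
      have hu2 := (pow_two u).symm.trans (sq_eq_one_of_exp_two S c.exp hn)
      have hut := (pow_two (u * t)).symm.trans (sq_eq_one_of_exp_two S c.exp hn')
      refine c.all.mem_of_commute S c.exp ht h1 hu2 ?_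
      have h3 := inv_eq_of_mul_eq_one_right hut
      rw [mul_inv_rev, inv_eq_of_mul_eq_one_right hu2,
        inv_eq_of_mul_eq_one_right ((pow_two t).symm.trans (c.exp t ht))] at h3
      exact h3
    have hle : T ≤ Subgroup.zpowers t := by
      intro u hu
      by_cases hu1 : u = 1
      · rw [hu1]; exact one_mem _
      rw [c.eq_of_commute he2 hpr hS ht h1 hw hwK hwo (hTS hu) hu1
        (Subgroup.mem_centralizer_singleton_iff.1 (hT hu)).symm]
      exact Subgroup.mem_zpowers t
    have := Subgroup.card_le_of_le hle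
    rwa [Nat.card_zpowers, c.orderOf_eq_two ht h1] at this
  have htw : t ∈ CG(w) := Subgroup.mem_centralizer_singleton_iff.2 hwt.symm.eq
  have hex : ∃ T : Sylow 2 CG(w), Nat.card (T : Subgroup CG(w)) = 2 := by
    obtain ⟨T, hT⟩ := (IsPGroup.of_card (p := 2) (n := 1)
      (show Nat.card (Subgroup.zpowers (⟨t, htw⟩ : CG(w))) = 2 ^ 1 by
        rw [Nat.card_zpowers, Subgroup.orderOf_mk, c.orderOf_eq_two ht h1, pow_one])).exists_le_sylow
    refine ⟨T, le_antisymm ?_ ?_⟩
    · rw [← Subgroup.card_map_of_injective (Subgroup.subtype_injective CG(w))]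
      exact hT2 _ (Subgroup.map_subtype_le _) (T.2.map _)
        ⟨⟨t, htw⟩, hT (Subgroup.mem_zpowers _), rfl⟩
    · have := Subgroup.card_le_of_le hT
      rwa [Nat.card_zpowers, Subgroup.orderOf_mk, c.orderOf_eq_two ht h1] at this
  obtain ⟨T, hT⟩ := hex
  -- a subgroup of order `|S|` does not fit
  have hfit : ∀ g : R, ¬ (∀ s ∈ (S : Subgroup R), g * s * g⁻¹ ∈ CG(w)) := by
    intro g hg
    have h2 : (S : Subgroup R).map (MulAut.conj g).toMonoidHom ≤ CG(w) := by
      rintro _ ⟨s, hs, rfl⟩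
      exact hg s hs
    obtain ⟨T', hT'⟩ := (show IsPGroup 2
        (((S : Subgroup R).map (MulAut.conj g).toMonoidHom).subgroupOf CG(w)) from
      (S.2.map _).comap_of_injective _ (Subgroup.subtype_injective _)).exists_le_sylow
    have h3 := Subgroup.card_le_of_le hT'
    rw [Nat.card_congr (Subgroup.subgroupOfEquivOfLe h2).toEquiv,
      ← Nat.card_congr ((S : Subgroup R).equivMapOfInjective _ (MulAut.conj g).injective).toEquiv] at h3
    have h4 := Nat.card_congr (T'.equiv T).toEquiv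
    have := c.big
    omega
  -- `e` does not divide the order of `K`
  have heK : ¬ e ∣ Nat.card K := by
    intro hd
    obtain ⟨⟨y, hy⟩, hyo⟩ := exists_prime_orderOf_dvd_card' (G := K) e hd
    rw [Subgroup.orderOf_mk] at hyo
    obtain ⟨g, hg⟩ := c.all (Subgroup.zpowers y) (Subgroup.zpowers w)
      (by rw [Nat.card_zpowers, Nat.card_zpowers, hyo, hwo])
    refine hfit g fun s hs => ?_
    have hwm := Subgroup.mem_zpowers w
    rw [hg] at hwm
    obtain ⟨z, hz, hzw⟩ := hwm
    obtain ⟨i, rfl⟩ := Subgroup.mem_zpowers_iff.1 hz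
    rw [Subgroup.mem_centralizer_singleton_iff, ← hzw]
    exact (((c.cent y hy s hs).zpow_left i).symm.map (MulAut.conj g).toMonoidHom).eq
  -- the normal complement of `T` in the centraliser of `w`
  have hTc : IsCyclic T := isCyclic_of_prime_card (p := 2) hT
  have hmin : (Nat.card CG(w)).minFac = 2 := (Nat.minFac_eq_two_iff _).2
    (hT ▸ Subgroup.card_subgroup_dvd_card (T : Subgroup CG(w)))
  have hcompl := IsCyclic.isComplement' hmin hTc
  set O := (MonoidHom.transferSylow T (hTc.normalizer_le_centralizer hmin)).ker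
  have hO2 : O.index = 2 := hcompl.symm.index_eq_card.trans hT
  -- a Sylow `e`-subgroup inside the centraliser
  obtain ⟨P₁, hP₁⟩ := (IsPGroup.of_card (p := e) (n := 1)
    (show Nat.card (Subgroup.zpowers w) = e ^ 1 by rw [Nat.card_zpowers, hwo, pow_one])).exists_le_sylow
  have hP₁c : ∀ x ∈ (P₁ : Subgroup R), ∀ y ∈ (P₁ : Subgroup R), Commute x y := by
    intro x hx y hy
    have := hP.1.is_comm.comm (P₁.equiv P ⟨x, hx⟩) (P₁.equiv P ⟨y, hy⟩)
    rw [← map_mul, ← map_mul] at this
    exact congrArg Subtype.val ((P₁.equiv P).injective this)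
  have hP₁w : (P₁ : Subgroup R) ≤ CG(w) := fun x hx => Subgroup.mem_centralizer_singleton_iff.2
    (hP₁c x hx w (hP₁ (Subgroup.mem_zpowers w))).eq
  set P₂ := P₁.subtype hP₁w
  have hodd : Odd e := he.out.odd_of_ne_two he2
  have hPO : (P₂ : Subgroup CG(w)) ≤ O := fun x hx => mem_of_index_two hO2 (by
    obtain ⟨n, hn⟩ := IsPGroup.iff_orderOf.1 P₂.2 ⟨x, hx⟩
    rw [Subgroup.orderOf_mk] at hn
    rw [hn]
    exact hodd.pow)
  have hfr := Sylow.normalizer_sup_eq_top' P₂ hPO
  have hev : 2 ∣ Nat.card (Subgroup.normalizer ((P₂ : Subgroup CG(w)) : Set CG(w))) := by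
    rw [← even_iff_two_dvd, ← Nat.not_odd_iff_even]
    intro hoddN
    have hle : Subgroup.normalizer ((P₂ : Subgroup CG(w)) : Set CG(w)) ≤ O := fun x hx =>
      mem_of_index_two hO2 (hoddN.of_dvd_nat (Subgroup.orderOf_dvd_natCard _ hx))
    have htop : O = ⊤ := top_le_iff.1 (hfr.ge.trans (sup_le hle le_rfl))
    rw [htop, Subgroup.index_top] at hO2
    omega
  obtain ⟨u, hu⟩ := exists_prime_orderOf_dvd_card'
    (G := Subgroup.normalizer ((P₂ : Subgroup CG(w)) : Set CG(w))) 2 hev
  set v : R := ((u : CG(w)) : R)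
  have hvo : orderOf v = 2 := by rw [Subgroup.orderOf_coe, Subgroup.orderOf_coe, hu]
  have hv2 : v * v = 1 := by rw [← pow_two, ← hvo, pow_orderOf_eq_one]
  have hvN : v ∈ Subgroup.normalizer ((P₁ : Subgroup R) : Set R) := by
    rw [Subgroup.mem_normalizer_iff_map_conj_eq]
    refine Subgroup.eq_of_le_of_card_ge ?_
      (Nat.card_congr ((P₁ : Subgroup R).equivMapOfInjective _ (MulAut.conj v).injective).toEquiv).le
    rintro _ ⟨x, hx, rfl⟩
    have := (Subgroup.mem_normalizer_iff.1 u.2 (⟨x, hP₁w hx⟩ : CG(w))).1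
      (Subgroup.mem_subgroupOf.2 hx)
    exact Subgroup.mem_subgroupOf.1 this
  have hvc := c.centralizes he2 P₁.2 hP₁c hv2 hvN
  obtain ⟨g, hg⟩ := c.exists_conj hvo ht h1
  have hsub : (P₁ : Subgroup R).map (MulAut.conj g).toMonoidHom ≤ CG(t) := by
    rintro _ ⟨x, hx, rfl⟩
    rw [Subgroup.mem_centralizer_singleton_iff, ← hg]
    exact ((hvc x hx).symm.map (MulAut.conj g).toMonoidHom).eq
  have hd := Subgroup.card_dvd_of_le hsub
  rw [← Nat.card_congr ((P₁ : Subgroup R).equivMapOfInjective _ (MulAut.conj g).injective).toEquiv,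
    c.card t ht h1] at hd
  obtain ⟨n, hn⟩ := IsPGroup.iff_card.1 P₁.2
  obtain ⟨r, hr⟩ := IsPGroup.iff_card.1 S.2
  have hde : Nat.card (P₁ : Subgroup R) ∣ e := by
    rw [hn] at hd ⊢
    refine (Nat.Coprime.mul_right (((he.out.coprime_iff_not_dvd).2 heK).pow_left n) ?_).dvd_of_dvd_mul_left hd
    rw [hr]
    exact (((Nat.coprime_primes he.out Nat.prime_two).2 he2).pow n r)
  rw [← Nat.card_congr (P.equiv P₁).toEquiv] at hde
  rcases (Nat.dvd_prime he.out).1 hde with hc | hc
  · haveI : Subsingleton (P : Subgroup R) := (Nat.card_eq_one_iff_unique.1 hc).1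
    exact isCyclic_of_subsingleton
  · exact isCyclic_of_prime_card hc

end Ctx

end CfsgLib.EqualOrder
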