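import Cfsg.Agent.S0205
import Cfsg.Agent.S4025
import Cfsg.Agent.Lib.EqualOrder.RankThreeCyclic
import Cfsg.Agent.Lib.SchurExt.SemiaffineCard
import Cfsg.Agent.Lib.ClassicalLinear.BlockHom
import Cfsg.Agent.Lib.ClassicalLinear.ProjLine
import Cfsg.Agent.Lib.ClassicalLinear.Simple
import Cfsg.Agent.Lib.Classes.PSLOut
import Mathlib.FieldTheory.Finite.GaloisField

/-!
Conjugate subgroups of equal order and elementary Sylow 2-subgroups of rank at least three.
-/

set_option autoImplicit false

namespace CfsgLib.EqualOrder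

universe u

local notation "CG(" x ")" => Subgroup.centralizer ({x} : Set _)

theorem eq_one_or_eq {G : Type*} [Group G] [Finite G] {x y : G} (hx : orderOf x = 2)
    (hy : y ∈ Subgroup.zpowers x) : y = 1 ∨ y = x := by
  classical
  have := mem_powers_iff_mem_zpowers.2 hy
  rw [mem_powers_iff_mem_range_orderOf] at this
  simp only [Finset.mem_image, Finset.mem_range, hx] at this
  obtain ⟨i, hi, rfl⟩ := this
  interval_cases i
  · exact Or.inl (pow_zero x)
  · exact Or.inr (pow_one x)

/-- An element of odd order of a semiaffine group in characteristic two centralising all elements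
of square one is trivial. -/
theorem semiaffine_eq_one {F : Type*} [Field F] [CharP F 2] {Q : Type*} [Group Q]
    (i : Q ≃* Cfsg.semiaffineGroup F) {q : Q} (hodd : Odd (orderOf q))
    (hc : ∀ a : Q, a * a = 1 → Commute q a) : q = 1 := by
  have hq2 : i q ^ 2 = 1 := by
    have htr : ∀ b x : F, (i q : Equiv.Perm F) (x + b) = (i q : Equiv.Perm F) x + b := by
      intro b x
      let τ : Cfsg.semiaffineGroup F :=
        ⟨SchurExt.semiPerm F b 1 (RingEquiv.refl F), SchurExt.semiPerm_mem _ _ _⟩
      have hτ : τ * τ = 1 := Subtype.ext (Equiv.ext fun y => by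
        show SchurExt.semiPerm F b 1 (RingEquiv.refl F) (SchurExt.semiPerm F b 1 (RingEquiv.refl F) y) = y
        simp [add_assoc, CharTwo.add_self_eq_zero])
      have h1 := (hc (i.symm τ) (by rw [← map_mul, hτ, map_one])).map i
      rw [i.apply_symm_apply] at h1
      have h2 := congrArg (fun z : Cfsg.semiaffineGroup F => (z : Equiv.Perm F) x) h1.eq
      simpa [τ] using h2
    refine Subtype.ext (Equiv.ext fun x => ?_)
    have h0 : ∀ y, (i q : Equiv.Perm F) y = y + (i q : Equiv.Perm F) 0 := fun y => by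
      have := htr y 0
      rw [zero_add, add_comm] at this
      exact this
    show (i q : Equiv.Perm F) ((i q : Equiv.Perm F) x) = x
    rw [h0 x, h0, add_assoc, CharTwo.add_self_eq_zero, add_zero]
  have hq : q ^ 2 = 1 := i.injective (by rw [map_pow, hq2, map_one])
  rw [← orderOf_eq_one_iff]
  exact Nat.eq_one_of_dvd_coprimes (Nat.coprime_two_left.2 hodd)
    (orderOf_dvd_of_pow_eq_one hq) dvd_rfl

theorem card_mulAut_psl_thirtytwo {F : Type} [Field F] [Fintype F] (hF : Fintype.card F = 32) :
    Nat.card (MulAut (Matrix.ProjectiveSpecialLinearGroup (Fin 2) F)) ≤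
      5 * Nat.card (Matrix.ProjectiveSpecialLinearGroup (Fin 2) F) := by
  haveI : Fact (Nat.Prime 2) := ⟨Nat.prime_two⟩
  set G := Matrix.ProjectiveSpecialLinearGroup (Fin 2) F
  obtain ⟨ψ, hψ, hker⟩ := Classes.exists_field_hom (F := F)
  obtain ⟨φ, -, -, hφ⟩ := Classes.exists_out_hom (n := 2) le_rfl ψ hψ hker
  obtain ⟨er⟩ := Classes.nonempty_ringAut_equiv (F := F) (p := 2) (f := 5) (by rw [hF]; norm_num)
  have hinj : Function.Injective φ := by
    rw [← MonoidHom.ker_eq_bot_iff]
    refine Subgroup.eq_bot_of_card_eq _ ?_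
    rw [hφ, Nat.card_eq_fintype_card, hF]
    norm_num
  have h5 : Nat.card (Cfsg.Out G) ≤ 5 := by
    have h := Nat.card_le_card_of_injective _ (er.injective.comp hinj)
    have hz : Nat.card (Multiplicative (ZMod 5)) = 5 := Nat.card_zmod 5
    rwa [hz] at h
  have hinn : Nat.card (Cfsg.Inn G) ≤ Nat.card G :=
    Nat.card_le_card_of_surjective _ (MulAut.conj : G →* MulAut G).rangeRestrict_surjective
  calc Nat.card (MulAut G) = Nat.card (Cfsg.Out G) * Nat.card (Cfsg.Inn G) :=
        Subgroup.card_eq_card_quotient_mul_card_subgroup _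
    _ ≤ 5 * Nat.card G := Nat.mul_le_mul h5 hinn

variable {R : Type u} [Group R] [Finite R]

/-- A normal subgroup of index a power of an odd prime contains all 2-elements. -/
theorem sylow_le_of_index [Fact (Nat.Prime 2)] (S : Sylow 2 R) (M : Subgroup R) [M.Normal]
    {p k : ℕ} (hp : Odd p) (hM : M.index = p ^ k) : (S : Subgroup R) ≤ M := by
  intro x hx
  have h1 := M.pow_index_mem x
  obtain ⟨n, hn⟩ := IsPGroup.iff_orderOf.1 S.2 ⟨x, hx⟩
  rw [Subgroup.orderOf_mk] at hn
  obtain ⟨m, hm⟩ := exists_pow_eq_self_of_coprime (show M.index.Coprime (orderOf x) by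
    rw [hn, hM]
    exact (Nat.coprime_two_right.2 hp).pow k n)
  rw [← hm]
  exact pow_mem h1 m

theorem psl_galois {F : Type} [Field F] [Fintype F] {n : ℕ} (hn : n ≠ 0)
    (hF : Fintype.card F = 2 ^ n) [Fact (Nat.Prime 2)] :
    Nonempty (Matrix.ProjectiveSpecialLinearGroup (Fin 2) F ≃*
      Matrix.ProjectiveSpecialLinearGroup (Fin 2) (GaloisField 2 n)) := by
  haveI : Fintype (GaloisField 2 n) := Fintype.ofFinite _
  exact ⟨ClassicalLinear.pslCongr (FiniteField.ringEquivOfCardEq (K := F) (K' := GaloisField 2 n) (by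
    rw [hF, ← Nat.card_eq_fintype_card (α := GaloisField 2 n), GaloisField.card 2 n hn]))⟩

set_option maxHeartbeats 400000 in
/-- Elementary Sylow 2-subgroups of order at least eight. -/
theorem AllConj.rank_three [Fact (Nat.Prime 2)] (h : AllConj R) (hO : Cfsg.oddCore R = ⊥)
    (S : Sylow 2 R) (hexp : ∀ x ∈ (S : Subgroup R), x ^ 2 = 1)
    (h8 : 8 ≤ Nat.card (S : Subgroup R)) :
    Nonempty (R ≃* Cfsg.affineGroup (GaloisField 2 3)) ∨
    Nonempty (R ≃* Cfsg.semiaffineGroup (GaloisField 2 3)) ∨
    Nonempty (R ≃* Cfsg.semiaffineGroup (GaloisField 2 5)) ∨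
    Nonempty (R ≃* Matrix.ProjectiveSpecialLinearGroup (Fin 2) (GaloisField 2 3)) ∨
    Nonempty (R ≃* MulAut (Matrix.ProjectiveSpecialLinearGroup (Fin 2) (GaloisField 2 5))) := by
  classical
  obtain ⟨n, hcard⟩ := IsPGroup.iff_card.1 S.2
  have hn : 3 ≤ n := by
    by_contra hlt
    have := Nat.pow_le_pow_right (show 1 ≤ 2 by norm_num) (show n ≤ 2 by omega)
    omega
  set N := Subgroup.normalizer ((S : Subgroup R) : Set R) with hN
  have hSN : (S : Subgroup R) ≤ N := Subgroup.le_normalizer
  set S' := S.subtype hSN with hS'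
  haveI hS'n : (S' : Subgroup N).Normal := by
    rw [hS', Sylow.coe_subtype]; exact Subgroup.normal_in_normalizer
  set K := Cfsg.pPrimeCore 2 N with hK
  haveI hKch : K.Characteristic := Cores.pPrimeCore_characteristic 2 _
  set π := QuotientGroup.mk' K with hπ
  haveI : Group.IsSolvable N := by
    haveI : Group.IsSolvable (N ⧸ (S' : Subgroup N)) := Cfsg.Agent.S0205.result (by
      rw [← Subgroup.index_eq_card, Nat.odd_iff]
      have := S'.not_dvd_index
      omega)
    haveI : Group.IsSolvable (S' : Subgroup N) :=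
      Group.isSolvable_of_comm fun a b => Subtype.ext (Subtype.ext (by
        have ha : ((a : N) : R) ∈ (S : Subgroup R) := Subgroup.mem_subgroupOf.1 a.2
        have hb : ((b : N) : R) ∈ (S : Subgroup R) := Subgroup.mem_subgroupOf.1 b.2
        have := (PConjugate.isElementaryAbelian_two hexp).1.is_comm.comm
          (⟨_, ha⟩ : (S : Subgroup R)) ⟨_, hb⟩
        exact (congrArg (fun z : (S : Subgroup R) => (z : R)) this :)))
    exact Group.isSolvable_of_ker_le_range (S' : Subgroup N).subtype
      (QuotientGroup.mk' (S' : Subgroup N)) (by simp)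
  have hsolv : Group.IsSolvable (N ⧸ K) :=
    Group.isSolvable_of_surjective (f := π) (QuotientGroup.mk'_surjective K)
  have hres := Cfsg.Agent.S4025.result (p := 2) (fun H L _ _ hc => h H L hc) S n hn
    (PConjugate.isElementaryAbelian_two hexp) hcard N rfl hsolv
  by_cases hnorm : (S : Subgroup R).Normal
  · -- `S` normal
    have hNt : N = ⊤ := Subgroup.normalizer_eq_top_iff.2 hnorm
    haveI : N.Normal := by rw [hNt]; infer_instance
    have hKb : K = ⊥ := by
      have hle := Cores.map_subtype_pPrimeCore_le (p := 2) (N := N) (Subgroup.Normal.isSubnormal inferInstance)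
      rw [show Cfsg.pPrimeCore 2 R = ⊥ from hO, le_bot_iff,
        Subgroup.map_eq_bot_iff_of_injective _ N.subtype_injective] at hle
      exact hle
    let e0 : R ≃* N ⧸ K := (Subgroup.topEquiv.symm.trans (MulEquiv.subgroupCongr hNt.symm)).trans
      (QuotientGroup.quotientBot.symm.trans (QuotientGroup.quotientMulEquivOfEq hKb.symm))
    rcases hres with ⟨-, -, hiso⟩ | ⟨-, -, ⟨i⟩⟩
    · rcases hiso rfl with ⟨⟨i⟩⟩ | ⟨⟨i⟩⟩
      · exact Or.inr (Or.inl ⟨e0.trans i⟩)
      · exact Or.inl ⟨e0.trans i⟩
    · exact Or.inr (Or.inr (Or.inl ⟨e0.trans i⟩))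
  -- `S` not normal
  set KR := K.map N.subtype with hKR
  have hKRcard : Nat.card KR = Nat.card K := Subgroup.card_map_of_injective N.subtype_injective
  have hoddK : Odd (Nat.card K) := Nat.coprime_two_right.1 (Cores.card_pPrimeCore_coprime 2)
  have hnormK : N ≤ Subgroup.normalizer (KR : Set R) :=
    Subgroup.le_normalizer.trans (Cores.normalizer_le_normalizer_map_subtype N K)
  have hdisj : KR ⊓ (S : Subgroup R) = ⊥ := Subgroup.inf_eq_bot_of_coprime (by
    rw [hKRcard, hcard]
    exact (Nat.coprime_two_right.2 hoddK).pow_right n)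
  have hcent : ∀ k ∈ KR, ∀ s ∈ (S : Subgroup R), Commute k s := by
    intro k hk s hs
    have hkN : k ∈ N := Subgroup.map_subtype_le K hk
    have hm : k * s * k⁻¹ * s⁻¹ ∈ KR ⊓ (S : Subgroup R) :=
      ⟨by
        rw [show k * s * k⁻¹ * s⁻¹ = k * (s * k⁻¹ * s⁻¹) by group]
        exact KR.mul_mem hk ((Subgroup.mem_normalizer_iff.1 (hnormK (hSN hs)) k⁻¹).1 (KR.inv_mem hk)),
      (S : Subgroup R).mul_mem ((Subgroup.mem_normalizer_iff.1 hkN s).1 hs) ((S : Subgroup R).inv_mem hs)⟩
    rw [hdisj, Subgroup.mem_bot] at hm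
    exact mul_inv_eq_iff_eq_mul.1 (mul_inv_eq_one.1 hm)
  have hNcard : ∀ t ∈ (S : Subgroup R), t ≠ 1 →
      Nat.card N = (2 ^ n - 1) * Nat.card CG(t) := by
    intro t ht ht1
    haveI := Fintype.ofFinite R
    have ho : ∀ x ∈ (S : Subgroup R), x ≠ 1 → orderOf x = 2 := fun x hx hx1 =>
      orderOf_eq_prime (hexp x hx) hx1
    have hfus : ∀ s ∈ (S : Subgroup R), s ≠ 1 → ∃ m ∈ N, m * t * m⁻¹ = s := by
      intro s hs hs1
      obtain ⟨g, hg⟩ := h (Subgroup.zpowers t) (Subgroup.zpowers s)
        (by rw [Nat.card_zpowers, Nat.card_zpowers, ho t ht ht1, ho s hs hs1])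
      obtain ⟨m, hm, hmA⟩ := SchurExt.normalizer_controls_fusion_abelian S
        (PConjugate.isElementaryAbelian_two hexp).1
        (Subgroup.zpowers_le.2 ht) (Subgroup.zpowers_le.2 hs) g hg
      refine ⟨m, hm, (eq_one_or_eq (ho s hs hs1)
        (hmA ▸ ⟨t, Subgroup.mem_zpowers t, rfl⟩ : m * t * m⁻¹ ∈ Subgroup.zpowers s)).resolve_left
        fun e => ht1 (conj_eq_one_iff.1 e)⟩
    have h1 := AbelianTwo.card_filter_conj (x := t) (fun y => y ∈ (S : Subgroup R))
    have hA : Nat.card {g : R // g * t * g⁻¹ ∈ (S : Subgroup R)} = Nat.card N := by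
      refine Nat.card_congr (Equiv.subtypeEquivRight fun g => ⟨fun hg => ?_, fun hg =>
        (Subgroup.mem_normalizer_iff.1 hg t).1 ht⟩)
      obtain ⟨m, hm, hmt⟩ := hfus _ hg (fun e => ht1 (conj_eq_one_iff.1 e))
      have hc : m⁻¹ * g ∈ CG(t) := by
        rw [Subgroup.mem_centralizer_singleton_iff]
        calc m⁻¹ * g * t = m⁻¹ * (g * t * g⁻¹) * g := by group
          _ = m⁻¹ * (m * t * m⁻¹) * g := by rw [hmt]
          _ = t * (m⁻¹ * g) := by group
      have := mul_mem hm (h.centralizer_le_normalizer S hexp ht ht1 hc)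
      rwa [mul_inv_cancel_left] at this
    have hB : Nat.card {y : R // IsConj t y ∧ y ∈ (S : Subgroup R)} = 2 ^ n - 1 := by
      rw [← hcard]
      haveI := Fintype.ofFinite (S : Subgroup R)
      let f : {y : R // IsConj t y ∧ y ∈ (S : Subgroup R)} ≃ {s : (S : Subgroup R) // s ≠ 1} :=
        { toFun := fun y => ⟨⟨y.1, y.2.2⟩, fun e => by
            obtain ⟨g, hg⟩ := isConj_iff.1 y.2.1
            exact ht1 (conj_eq_one_iff.1 (hg.trans (congrArg Subtype.val e)))⟩
          invFun := fun s => ⟨s.1, by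
            obtain ⟨m, -, hm⟩ := hfus s.1 s.1.2 (fun e => s.2 (Subtype.ext e))
            exact ⟨isConj_iff.2 ⟨m, hm⟩, s.1.2⟩⟩
          left_inv := fun y => rfl
          right_inv := fun s => rfl }
      rw [Nat.card_congr f, Nat.card_eq_fintype_card, Nat.card_eq_fintype_card,
        Fintype.card_subtype_compl, Fintype.card_subtype_eq]
    rw [hA, hB] at h1
    exact h1
  have hctx : ∀ e : ℕ, Nat.card (N ⧸ K) = (2 ^ n - 1) * (2 ^ n * e) → Ctx S e KR := by
    intro e hQ
    refine ⟨h, hO, hexp, h8, hnorm, hKRcard ▸ hoddK, hnormK, hcent, fun t ht ht1 => ?_⟩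
    have h1 := hNcard t ht ht1
    rw [Subgroup.card_eq_card_quotient_mul_card_subgroup K, hQ] at h1
    have hpos : 0 < 2 ^ n - 1 := by omega
    refine (Nat.eq_of_mul_eq_mul_left hpos ?_).symm
    rw [← h1, hKRcard, hcard]
    ring
  -- elements of odd prime order centralising `S`
  have hSbar : ∀ {F : Type} [Field F] [CharP F 2], (N ⧸ K ≃* Cfsg.semiaffineGroup F) →
      ∀ {e : ℕ}, Odd e → ∀ w : R, w ∈ N → (∀ s ∈ (S : Subgroup R), Commute w s) →
        orderOf w = e → w ∈ KR := by
    intro F _ _ i e he w hw hws hwo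
    set T := S'.mapSurjective (f := π) (QuotientGroup.mk'_surjective K) with hT
    haveI hTn : (T : Subgroup (N ⧸ K)).Normal := by
      rw [hT, Sylow.coe_mapSurjective]
      exact hS'n.map π (QuotientGroup.mk'_surjective K)
    haveI := (Sylow.unique_of_normal T hTn)
    have hq : π ⟨w, hw⟩ = 1 := by
      refine semiaffine_eq_one i ?_ fun a ha => ?_
      · have h1 : orderOf (⟨w, hw⟩ : N) = e := (Subgroup.orderOf_mk w hw).trans hwo
        exact (h1 ▸ he).of_dvd_nat (orderOf_map_dvd π _)
      · obtain ⟨T', hT'⟩ := (show IsPGroup 2 (Subgroup.zpowers a) from fun y => ⟨1, by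
          obtain ⟨y, hy⟩ := y
          obtain ⟨j, rfl⟩ := Subgroup.mem_zpowers_iff.1 hy
          refine Subtype.ext ?_
          rw [Subgroup.coe_pow, pow_one, pow_two, ← zpow_add, ← two_mul, zpow_mul,
            show a ^ (2 : ℤ) = 1 by rw [zpow_two, ha], one_zpow, Subgroup.coe_one]⟩).exists_le_sylow
        have haT := hT' (Subgroup.mem_zpowers a)
        rw [Subsingleton.elim T' T, hT] at haT
        obtain ⟨x, hx, hxa⟩ : ∃ x ∈ (S' : Subgroup N), π x = a := haT
        rw [← hxa]
        exact Commute.map (Subtype.ext (hws _ (Subgroup.mem_subgroupOf.1 hx)).eq) π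
    rw [hπ, QuotientGroup.mk'_apply, QuotientGroup.eq_one_iff] at hq
    exact ⟨⟨w, hw⟩, hq, rfl⟩
  rcases hres with ⟨rfl, -, hiso⟩ | ⟨rfl, -, ⟨i⟩⟩
  · rcases hiso rfl with ⟨⟨i⟩⟩ | ⟨⟨i⟩⟩
    · -- semiaffine group on eight points
      exfalso
      have c := hctx 3 (by
        rw [Nat.card_congr i.toEquiv, SchurExt.natCard_semiaffine,
          SchurExt.natCard_units_galoisField 2 3 (by norm_num),
          SchurExt.natCard_ringEquiv_galoisField 2 3 (by norm_num),
          GaloisField.card 2 3 (by norm_num)]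
        norm_num)
      haveI : Fact (Nat.Prime 3) := ⟨Nat.prime_three⟩
      obtain ⟨P⟩ := (inferInstance : Nonempty (Sylow 3 R))
      have hpr : (Nat.card (S : Subgroup R) - 1).Prime := by rw [hcard]; norm_num
      obtain ⟨M, hM, h3, k, hk⟩ := c.exists_complement (by norm_num) P
        (c.sylow_cyclic (by norm_num) hpr (hSbar i (by decide)) P) (j := 1) (by norm_num)
      haveI := hM
      obtain ⟨F, iF, iT, hF, ⟨eM⟩⟩ := c.exists_psl M (sylow_le_of_index S M (by decide) hk)
        ((Nat.prime_three.coprime_iff_not_dvd.2 h3).symm) hpr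
      refine h3 ?_
      rw [Nat.card_congr eM.toEquiv,
        ClassicalLinear.card_PSL_two_of_even (hF.trans (hcard.trans (by norm_num : (2 : ℕ) ^ 3 = 8)))
          (by decide)]
      norm_num
    · -- affine group on eight points
      have c := hctx 1 (by
        rw [Nat.card_congr i.toEquiv, SchurExt.natCard_affine,
          SchurExt.natCard_units_galoisField 2 3 (by norm_num),
          GaloisField.card 2 3 (by norm_num)]
        norm_num)
      obtain ⟨F, iF, iT, hF, ⟨eM⟩⟩ := c.exists_psl ⊤ le_top (Nat.coprime_one_right _)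
        (by rw [hcard]; norm_num)
      obtain ⟨eF⟩ := psl_galois (F := F) (n := 3) (by norm_num) (hF.trans hcard)
      exact Or.inr (Or.inr (Or.inr (Or.inl ⟨(Subgroup.topEquiv.symm.trans eM).trans eF⟩)))
  · -- semiaffine group on thirty-two points
    right; right; right; right
    have c := hctx 5 (by
      rw [Nat.card_congr i.toEquiv, SchurExt.natCard_semiaffine,
        SchurExt.natCard_units_galoisField 2 5 (by norm_num),
        SchurExt.natCard_ringEquiv_galoisField 2 5 (by norm_num),
        GaloisField.card 2 5 (by norm_num)]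
      norm_num)
    haveI : Fact (Nat.Prime 5) := ⟨by norm_num⟩
    obtain ⟨P⟩ := (inferInstance : Nonempty (Sylow 5 R))
    have hpr : (Nat.card (S : Subgroup R) - 1).Prime := by rw [hcard]; norm_num
    obtain ⟨M, hM, h5, k, hk⟩ := c.exists_complement (by norm_num) P
      (c.sylow_cyclic (by norm_num) hpr (hSbar i (by decide)) P) (j := 2) (by norm_num)
    haveI := hM
    have hSM := sylow_le_of_index S M (by decide) hk
    obtain ⟨F, iF, iT, hF, ⟨eM⟩⟩ := c.exists_psl M hSM
      (((Fact.out : Nat.Prime 5).coprime_iff_not_dvd.2 h5).symm) hpr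
    have hF32 : Fintype.card F = 32 := hF.trans (hcard.trans (by norm_num))
    haveI : IsSimpleGroup (Matrix.ProjectiveSpecialLinearGroup (Fin 2) F) :=
      ClassicalLinear.isSimpleGroup_psl_fin le_rfl (fun _ => by rw [Nat.card_eq_fintype_card]; omega)
    haveI : IsSimpleGroup M := by
      haveI : Nontrivial M := eM.toEquiv.nontrivial
      exact IsSimpleGroup.isSimpleGroup_of_surjective eM.symm.toMonoidHom eM.symm.surjective
    have hnc : ¬ IsMulCommutative M := by
      intro hcm
      letI : CommGroup M :=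
        { (inferInstance : Group M) with mul_comm := fun a b => hcm.is_comm.comm a b }
      have hpM : (Nat.card M).Prime := IsSimpleGroup.prime_card
      have h1 := Subgroup.card_dvd_of_le hSM
      rw [hcard] at h1
      have h2 := (Nat.prime_dvd_prime_iff_eq Nat.prime_two hpM).1
        (dvd_trans (by norm_num) h1)
      rw [← h2] at h1
      norm_num at h1
    have hC : Subgroup.centralizer (M : Set R) = ⊥ := by
      have hCM : Subgroup.centralizer (M : Set R) ⊓ M = ⊥ := by
        by_contra hne
        have hz : (Subgroup.center M) = ⊤ := by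
          rcases (inferInstance : (Subgroup.center M).Normal).eq_bot_or_eq_top with e | e
          · exfalso
            refine hne (eq_bot_iff.2 fun x hx => ?_)
            have : (⟨x, hx.2⟩ : M) ∈ Subgroup.center M := Subgroup.mem_center_iff.2 fun y =>
              Subtype.ext (Subgroup.mem_centralizer_iff.1 hx.1 y y.2)
            rw [e, Subgroup.mem_bot] at this
            exact congrArg Subtype.val this
          · exact e
        exact hnc ⟨⟨fun a b => (Subgroup.mem_center_iff.1 (hz ▸ Subgroup.mem_top b) a)⟩⟩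
      refine Cores.oddCore_eq_bot_iff.1 hO _ inferInstance ?_
      set C := Subgroup.centralizer (M : Set R)
      have hd : Nat.card C ∣ 5 ^ k := by
        rw [← hk, Subgroup.index_eq_card]
        refine Subgroup.card_dvd_of_injective ((QuotientGroup.mk' M).comp C.subtype) ?_
        rw [← MonoidHom.ker_eq_bot_iff, ← MonoidHom.comap_ker, QuotientGroup.ker_mk',
          eq_bot_iff]
        intro x hx
        have : (x : R) ∈ C ⊓ M := ⟨x.2, hx⟩
        rw [hCM, Subgroup.mem_bot] at this
        exact Subgroup.mem_bot.2 (Subtype.ext this)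
      exact ((by decide : Odd 5).pow).of_dvd_nat hd
    have hinj : Function.Injective (MulAut.conjNormal (H := M)) := by
      rw [← MonoidHom.ker_eq_bot_iff, eq_bot_iff, ← hC]
      intro r hr
      refine Subgroup.mem_centralizer_iff.2 fun x hx => ?_
      have := congrArg Subtype.val (DFunLike.congr_fun (MonoidHom.mem_ker.1 hr) (⟨x, hx⟩ : M))
      rw [MulAut.conjNormal_apply, MulAut.one_apply] at this
      exact (mul_inv_eq_iff_eq_mul.1 this).symm
    obtain ⟨t, ht, ht1⟩ := c.exists_involution
    have h5R : 5 ∣ Nat.card R :=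
      (c.dvd_centralizer (by norm_num) ht ht1).trans (Subgroup.card_subgroup_dvd_card _)
    have hk0 : k ≠ 0 := by
      rintro rfl
      rw [pow_zero, Subgroup.index_eq_one] at hk
      refine h5 ?_
      rw [hk, Subgroup.card_top]
      exact h5R
    have hge : 5 * Nat.card M ≤ Nat.card R := by
      rw [← M.card_mul_index, hk, mul_comm 5]
      exact Nat.mul_le_mul_left _ (Nat.le_of_dvd (pow_pos (by norm_num) k) (dvd_pow_self 5 hk0))
    have hle : Nat.card (MulAut M) ≤ Nat.card R := by
      refine le_trans ?_ hge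
      rw [Nat.card_congr (MulAut.congr eM).toEquiv, Nat.card_congr eM.toEquiv]
      exact card_mulAut_psl_thirtytwo hF32
    obtain ⟨eF⟩ := psl_galois (F := F) (n := 5) (by norm_num) (hF.trans hcard)
    have hbij : Function.Bijective (MulAut.conjNormal (H := M)) :=
      (Nat.bijective_iff_injective_and_card _).2
        ⟨hinj, le_antisymm (Nat.card_le_card_of_injective _ hinj) hle⟩
    exact ⟨(MulEquiv.ofBijective _ hbij).trans (MulAut.congr (eM.trans eF))⟩

end CfsgLib.EqualOrder
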