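import Cfsg.Agent.Lib.EqualOrder.Basic
import Cfsg.Agent.Lib.SchurExt.SylowSemiaffine
import Cfsg.Agent.Lib.Transfer.Abelian
import Cfsg.Agent.Lib.AbelianTwo.Bound
import Mathlib.GroupTheory.Transfer

/-!
Conjugate subgroups of equal order, elementary Sylow 2-subgroup of rank at least three: the
local analysis around the centraliser of an involution.
-/

set_option autoImplicit false

namespace CfsgLib.EqualOrder

universe u

variable {R : Type u} [Group R]

local notation "CG(" x ")" => Subgroup.centralizer ({x} : Set _)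

/-- The situation: `K` is the odd core of the normaliser of `S`, `e` the odd part of the centraliser
of an involution modulo `K`. -/
structure Ctx [Finite R] [Fact (Nat.Prime 2)] (S : Sylow 2 R) (e : ℕ) (K : Subgroup R) : Prop where
  all : AllConj R
  core : Cfsg.oddCore R = ⊥
  exp : ∀ x ∈ (S : Subgroup R), x ^ 2 = 1
  big : 8 ≤ Nat.card (S : Subgroup R)
  notNormal : ¬ (S : Subgroup R).Normal
  odd : Odd (Nat.card K)
  norm : Subgroup.normalizer ((S : Subgroup R) : Set R) ≤ Subgroup.normalizer (K : Set R)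
  cent : ∀ k ∈ K, ∀ s ∈ (S : Subgroup R), Commute k s
  card : ∀ t ∈ (S : Subgroup R), t ≠ 1 →
    Nat.card CG(t) = Nat.card K * Nat.card (S : Subgroup R) * e

namespace Ctx

variable [Finite R] [Fact (Nat.Prime 2)] {S : Sylow 2 R} {e : ℕ} {K : Subgroup R}
  (c : Ctx S e K)
include c

theorem exists_involution : ∃ t ∈ (S : Subgroup R), t ≠ 1 := by
  haveI : Nontrivial (S : Subgroup R) :=
    Finite.one_lt_card_iff_nontrivial.1 (by have := c.big; omega)
  obtain ⟨t, ht⟩ := exists_ne (1 : (S : Subgroup R))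
  exact ⟨t, t.2, fun h => ht (Subtype.ext h)⟩

theorem orderOf_eq_two {t : R} (ht : t ∈ (S : Subgroup R)) (h1 : t ≠ 1) : orderOf t = 2 :=
  orderOf_eq_prime (c.exp t ht) h1

theorem commute {s t : R} (hs : s ∈ (S : Subgroup R)) (ht : t ∈ (S : Subgroup R)) :
    Commute s t := by
  have h1 := inv_eq_of_mul_eq_one_right ((pow_two (s * t)).symm.trans (c.exp _ (mul_mem hs ht)))
  rw [mul_inv_rev, inv_eq_of_mul_eq_one_right ((pow_two s).symm.trans (c.exp s hs)),
    inv_eq_of_mul_eq_one_right ((pow_two t).symm.trans (c.exp t ht))] at h1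
  exact h1.symm

theorem centralizer_le {t : R} (ht : t ∈ (S : Subgroup R)) (h1 : t ≠ 1) :
    CG(t) ≤ Subgroup.normalizer ((S : Subgroup R) : Set R) :=
  c.all.centralizer_le_normalizer S c.exp ht h1

theorem le_centralizer {t : R} (ht : t ∈ (S : Subgroup R)) : K ≤ CG(t) :=
  fun k hk => Subgroup.mem_centralizer_singleton_iff.2 (c.cent k hk t ht).eq

/-- All involutions are conjugate. -/
theorem exists_conj {x t : R} (hx : orderOf x = 2) (ht : t ∈ (S : Subgroup R)) (h1 : t ≠ 1) :
    ∃ g : R, g * x * g⁻¹ = t := by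
  obtain ⟨g, hg⟩ := c.all (Subgroup.zpowers x) (Subgroup.zpowers t)
    (by rw [Nat.card_zpowers, Nat.card_zpowers, hx, c.orderOf_eq_two ht h1])
  refine ⟨g, ?_⟩
  have hm := Subgroup.mem_zpowers t
  rw [hg] at hm
  obtain ⟨y, hy, hyt⟩ := hm
  classical
  have := mem_powers_iff_mem_zpowers.2 hy
  rw [mem_powers_iff_mem_range_orderOf] at this
  simp only [Finset.mem_image, Finset.mem_range, hx] at this
  obtain ⟨i, hi, rfl⟩ := this
  interval_cases i
  · exfalso
    rw [pow_zero, map_one] at hyt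
    exact h1 hyt.symm
  · rw [pow_one] at hyt
    exact hyt

/-- Involutions of `S` are conjugate in the normaliser. -/
theorem exists_normalizer_conj {s t : R} (hs : s ∈ (S : Subgroup R)) (hs1 : s ≠ 1)
    (ht : t ∈ (S : Subgroup R)) (ht1 : t ≠ 1) :
    ∃ m ∈ Subgroup.normalizer ((S : Subgroup R) : Set R), m * s * m⁻¹ = t := by
  obtain ⟨g, hg⟩ := c.exists_conj (c.orderOf_eq_two hs hs1) ht ht1
  obtain ⟨m, hm, hmA⟩ := SchurExt.normalizer_controls_fusion_abelian S
    (PConjugate.isElementaryAbelian_two c.exp).1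
    (Subgroup.zpowers_le.2 hs) (Subgroup.zpowers_le.2 ht) g
    (by rw [MonoidHom.map_zpowers]; exact congrArg Subgroup.zpowers hg.symm)
  refine ⟨m, hm, ?_⟩
  have hm' : m * s * m⁻¹ ∈ Subgroup.zpowers t := hmA ▸ ⟨s, Subgroup.mem_zpowers s, rfl⟩
  classical
  have := mem_powers_iff_mem_zpowers.2 hm'
  rw [mem_powers_iff_mem_range_orderOf] at this
  simp only [Finset.mem_image, Finset.mem_range, c.orderOf_eq_two ht ht1] at this
  obtain ⟨i, hi, hit⟩ := this
  interval_cases i
  · exact absurd (conj_eq_one_iff.1 (by rw [pow_zero] at hit; exact hit.symm)) hs1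
  · rw [pow_one] at hit
    exact hit.symm

/-- An element of the centraliser of an involution with order coprime to `2 e` lies in `K`. -/
theorem mem_of_coprime {t y : R} (ht : t ∈ (S : Subgroup R)) (h1 : t ≠ 1) (hy : y ∈ CG(t))
    (hodd : Odd (orderOf y)) (he : (orderOf y).Coprime e) : y ∈ K := by
  haveI : (K.subgroupOf CG(t)).Normal :=
    Subgroup.normal_subgroupOf_of_le_normalizer ((c.centralizer_le ht h1).trans c.norm)
  have hidx : (K.subgroupOf CG(t)).index = Nat.card (S : Subgroup R) * e := by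
    have h2 := (K.subgroupOf CG(t)).card_mul_index
    rw [Nat.card_congr (Subgroup.subgroupOfEquivOfLe (c.le_centralizer ht)).toEquiv,
      c.card t ht h1, mul_assoc] at h2
    exact Nat.eq_of_mul_eq_mul_left Nat.card_pos h2
  have h3 : (⟨y, hy⟩ : CG(t)) ^ (Nat.card (S : Subgroup R) * e) ∈ K.subgroupOf CG(t) :=
    hidx ▸ (K.subgroupOf CG(t)).pow_index_mem _
  rw [Subgroup.mem_subgroupOf, Subgroup.coe_pow] at h3
  have hcop : (orderOf y).Coprime (Nat.card (S : Subgroup R) * e) := by
    refine Nat.Coprime.mul_right ?_ he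
    obtain ⟨n, hn⟩ := IsPGroup.iff_card.1 S.2
    rw [hn]
    exact (Nat.coprime_two_right.2 hodd).pow_right n
  obtain ⟨m, hm⟩ := exists_pow_eq_self_of_coprime hcop.symm
  rw [← hm]
  exact pow_mem h3 m

/-- A normal subgroup containing `S` whose order is prime to `e` satisfies the hypotheses of the
recognition theorem of `PSL(2, 2^n)`. -/
theorem hyp (M : Subgroup R) [M.Normal] (hSM : (S : Subgroup R) ≤ M)
    (he : (Nat.card M).Coprime e) : AbelianTwo.Hyp (S.subtype hSM) where
  comm a ha b hb := Subtype.ext (c.commute (Subgroup.mem_subgroupOf.1 ha) (Subgroup.mem_subgroupOf.1 hb)).eq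
  rank := ⟨_, le_rfl, fun x hx => Subtype.ext ((pow_two (x : R)).symm.trans
    (c.exp _ (Subgroup.mem_subgroupOf.1 hx))), by
      rw [Sylow.coe_subtype, Nat.card_congr (Subgroup.subgroupOfEquivOfLe hSM).toEquiv]
      exact c.big⟩
  nilp x hx y hy hodd := by
    obtain ⟨t, ht, h1⟩ := c.exists_involution
    obtain ⟨g, hg⟩ := c.exists_conj (x := (x : R)) (by rw [Subgroup.orderOf_coe, hx]) ht h1
    let f : CG(x) →* R := ((MulAut.conj g).toMonoidHom.comp M.subtype).comp CG(x).subtype
    have hf : Function.Injective f :=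
      ((MulAut.conj g).injective.comp M.subtype_injective).comp CG(x).subtype_injective
    have hfC : ∀ a : CG(x), f a ∈ CG(t) := fun a => by
      rw [Subgroup.mem_centralizer_singleton_iff]
      show g * ((a : M) : R) * g⁻¹ * t = t * (g * ((a : M) : R) * g⁻¹)
      have hc : ((a : M) : R) * (x : R) = (x : R) * ((a : M) : R) :=
        congrArg Subtype.val (Subgroup.mem_centralizer_singleton_iff.1 a.2)
      calc g * ((a : M) : R) * g⁻¹ * t = g * (((a : M) : R) * (x : R)) * g⁻¹ := by rw [← hg]; group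
        _ = t * (g * ((a : M) : R) * g⁻¹) := by rw [hc, ← hg]; group
    haveI : (K.comap f).Normal := ⟨fun a ha b => by
      rw [Subgroup.mem_comap, map_mul, map_mul, map_inv]
      exact (Subgroup.mem_normalizer_iff.1
        (c.norm (c.centralizer_le ht h1 (hfC b))) _).1 ha⟩
    have hle : K.comap f ≤ Cfsg.pPrimeCore 2 CG(x) := by
      refine Cores.le_pPrimeCore (Nat.coprime_two_right.2 (c.odd.of_dvd_nat ?_))
      rw [Nat.card_congr ((K.comap f).equivMapOfInjective f hf).toEquiv]
      exact Subgroup.card_dvd_of_le (Subgroup.map_comap_le f K)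
    have ho : orderOf (f ⟨y, hy⟩) = orderOf y := by
      rw [orderOf_injective f hf, Subgroup.orderOf_mk]
    refine ⟨⟨y, hy⟩, hle (c.mem_of_coprime ht h1 (hfC _) (ho ▸ hodd) ?_), rfl⟩
    exact he.coprime_dvd_left (ho ▸ orderOf_dvd_natCard y)
  core := by
    have h := Cores.map_subtype_pPrimeCore_le (p := 2) (N := M) (Subgroup.Normal.isSubnormal inferInstance)
    rw [show Cfsg.pPrimeCore 2 R = ⊥ from c.core, le_bot_iff,
      Subgroup.map_eq_bot_iff_of_injective _ M.subtype_injective] at h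
    exact h

/-- Recognition of the normal subgroup as `PSL(2, 2^n)`. -/
theorem exists_psl (M : Subgroup R) [M.Normal] (hSM : (S : Subgroup R) ≤ M)
    (he : (Nat.card M).Coprime e) (hpr : (Nat.card (S : Subgroup R) - 1).Prime) :
    ∃ (F : Type) (_ : Field F) (_ : Fintype F), Fintype.card F = Nat.card (S : Subgroup R) ∧
      Nonempty (M ≃* Matrix.ProjectiveSpecialLinearGroup (Fin 2) F) := by
  haveI : Fintype M := Fintype.ofFinite M
  have H := c.hyp M hSM he
  have hcard : Nat.card (S.subtype hSM : Sylow 2 M) = Nat.card (S : Subgroup R) :=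
    Nat.card_congr (Subgroup.subgroupOfEquivOfLe hSM).toEquiv
  have hnn : ¬ ((S.subtype hSM : Sylow 2 M) : Subgroup M).Normal := by
    intro hn
    refine c.notNormal (Subgroup.normalizer_eq_top_iff.1 (eq_top_iff.2 fun g _ => ?_))
    rw [Subgroup.mem_normalizer_iff_map_conj_eq]
    have hle : (S : Subgroup R).map (MulAut.conj g).toMonoidHom ≤ M := by
      rintro _ ⟨s, hs, rfl⟩
      exact Subgroup.Normal.conj_mem inferInstance s (hSM hs) g
    refine Subgroup.eq_of_le_of_card_ge ?_
      (Nat.card_congr ((S : Subgroup R).equivMapOfInjective _ (MulAut.conj g).injective).toEquiv).le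
    intro x hx
    haveI : Subsingleton (Sylow 2 M) := by
      haveI := Sylow.unique_of_normal (S.subtype hSM) hn
      infer_instance
    obtain ⟨T, hT⟩ := (show IsPGroup 2 (((S : Subgroup R).map (MulAut.conj g).toMonoidHom).subgroupOf M) from
      (S.2.map _).comap_of_injective _ M.subtype_injective).exists_le_sylow
    have := hT (show (⟨x, hle hx⟩ : M) ∈ _ from Subgroup.mem_subgroupOf.2 hx)
    rw [Subsingleton.elim T (S.subtype hSM)] at this
    exact Subgroup.mem_subgroupOf.1 this
  have hel : ∀ a ∈ ((S.subtype hSM : Sylow 2 M) : Subgroup M), a * a = 1 := fun a ha =>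
    Subtype.ext ((pow_two (a : R)).symm.trans (c.exp _ (Subgroup.mem_subgroupOf.1 ha)))
  have hout : AbelianTwo.Hyp.OuterComm H := by
    haveI := H.innerSub_normal
    have h1 := H.card_outer hnn hel
    have hq : (Nat.card (AbelianTwo.bigSub H ⧸
        (AbelianTwo.innerSub H).subgroupOf (AbelianTwo.bigSub H))).Prime := by
      rw [show Nat.card (AbelianTwo.bigSub H ⧸
        (AbelianTwo.innerSub H).subgroupOf (AbelianTwo.bigSub H)) =
          Nat.card (S : Subgroup R) - 1 by rw [← hcard]; exact (Nat.eq_sub_of_add_eq h1)]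
      exact hpr
    haveI : Fact (Nat.Prime _) := ⟨hq⟩
    haveI : IsCyclic (AbelianTwo.bigSub H ⧸
        (AbelianTwo.innerSub H).subgroupOf (AbelianTwo.bigSub H)) := isCyclic_of_prime_card rfl
    intro a ha b hb
    have h2 : ((⟨a, ha⟩ * ⟨b, hb⟩ * ⟨a, ha⟩⁻¹ * ⟨b, hb⟩⁻¹ : AbelianTwo.bigSub H)) ∈
        (AbelianTwo.innerSub H).subgroupOf (AbelianTwo.bigSub H) := by
      rw [← QuotientGroup.eq_one_iff, QuotientGroup.mk_mul, QuotientGroup.mk_mul,
        QuotientGroup.mk_mul, QuotientGroup.mk_inv, QuotientGroup.mk_inv]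
      rw [mul_inv_eq_one, mul_inv_eq_iff_eq_mul]
      exact IsCyclic.commutative.is_comm.comm _ _
    exact Subgroup.mem_subgroupOf.1 h2
  obtain ⟨F, iF, iT, hF, he'⟩ := H.exists_psl_two hnn hout
  exact ⟨F, iF, iT, hF.trans hcard, he'⟩

variable [he : Fact e.Prime] (he2 : e ≠ 2)
include he2

theorem dvd_centralizer {t : R} (ht : t ∈ (S : Subgroup R)) (h1 : t ≠ 1) :
    e ∣ Nat.card CG(t) := c.card t ht h1 ▸ dvd_mul_left e _

/-- No involution inverts an element of order `e`. -/
theorem not_inverted {g w : R} (hg : g * g = 1) (hw : orderOf w = e) : g * w * g⁻¹ ≠ w⁻¹ := by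
  intro hinv
  obtain ⟨t, ht, h1⟩ := c.exists_involution
  by_cases hg1 : g = 1
  · rw [hg1, one_mul, inv_one, mul_one] at hinv
    have h2 := orderOf_dvd_of_pow_eq_one (show w ^ 2 = 1 by
      rw [pow_two]; exact eq_inv_iff_mul_eq_one.1 hinv)
    rw [hw] at h2
    exact he2 ((Nat.prime_dvd_prime_iff_eq he.out Nat.prime_two).1 h2)
  obtain ⟨w', hw'⟩ := exists_prime_orderOf_dvd_card' (G := CG(t)) e (c.dvd_centralizer he2 ht h1)
  exact c.all.false_of_inverted he2 hw (w' := (w' : R)) (by rw [Subgroup.orderOf_coe, hw'])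
    (orderOf_eq_prime (by rw [pow_two, hg]) hg1) (c.orderOf_eq_two ht h1) hinv
    (Subgroup.mem_centralizer_singleton_iff.1 w'.2).symm

/-- An involution normalising an abelian `e`-subgroup centralises it. -/
theorem centralizes {P : Subgroup R} (hP : IsPGroup e P) (hc : ∀ x ∈ P, ∀ y ∈ P, Commute x y)
    {g : R} (hg : g * g = 1) (hgP : g ∈ Subgroup.normalizer (P : Set R)) :
    ∀ x ∈ P, Commute g x := by
  intro x hx
  have hgx : g * x * g⁻¹ ∈ P := (Subgroup.mem_normalizer_iff.1 hgP x).1 hx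
  set y := x⁻¹ * (g * x * g⁻¹) with hy
  have hyP : y ∈ P := mul_mem (inv_mem hx) hgx
  have hinv : g * y * g⁻¹ = y⁻¹ := by
    have hgi : g⁻¹ = g := inv_eq_of_mul_eq_one_right hg
    calc g * y * g⁻¹ = (g * x⁻¹ * g⁻¹) * ((g * g) * x * (g * g)⁻¹) := by rw [hy]; group
      _ = g * x⁻¹ * g⁻¹ * x := by rw [hg]; group
      _ = y⁻¹ := by simp only [hy, mul_inv_rev, inv_inv, hgi, mul_assoc]
  by_cases hy1 : y = 1
  · rw [hy, inv_mul_eq_one] at hy1
    exact mul_inv_eq_iff_eq_mul.1 hy1.symm
  exfalso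
  obtain ⟨k, hk⟩ := IsPGroup.iff_orderOf.1 hP ⟨y, hyP⟩
  rw [Subgroup.orderOf_mk] at hk
  rcases k with _ | k
  · rw [pow_zero, orderOf_eq_one_iff] at hk
    exact hy1 hk
  refine c.not_inverted he2 hg (w := y ^ e ^ k) ?_ ?_
  · rw [orderOf_pow, hk, Nat.gcd_eq_right (pow_dvd_pow e (by omega)),
      Nat.pow_div (by omega) he.out.pos, Nat.add_sub_cancel_left, pow_one]
  · rw [← conj_pow, hinv, inv_pow]

/-- A cyclic Sylow `e`-subgroup, with `e - 1` a power of two, has a normal complement. -/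
theorem exists_complement (P : Sylow e R) (hP : IsCyclic P) {j : ℕ} (hj : e - 1 = 2 ^ j) :
    ∃ M : Subgroup R, M.Normal ∧ ¬ e ∣ Nat.card M ∧ ∃ k, M.index = e ^ k := by
  have hle : Subgroup.normalizer ((P : Subgroup R) : Set R) ≤
      Subgroup.centralizer ((P : Subgroup R) : Set R) := by
    have hc : ∀ x ∈ (P : Subgroup R), ∀ y ∈ (P : Subgroup R), Commute x y := by
      intro x hx y hy
      haveI := hP
      exact congrArg Subtype.val
        (IsCyclic.commutative.is_comm.comm (⟨x, hx⟩ : (P : Subgroup R)) ⟨y, hy⟩)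
    intro g hg
    set φ := Subgroup.normalizerMonoidHom (P : Subgroup R) with hφ
    obtain ⟨a, m, hm2, ham⟩ := Nat.exists_eq_pow_mul_and_not_dvd (orderOf_pos g).ne' 2 (by norm_num)
    have hker : φ.ker = (Subgroup.centralizer ((P : Subgroup R) : Set R)).subgroupOf _ :=
      Subgroup.normalizerMonoidHom_ker _
    -- the two-part
    have h2 : ∀ x ∈ (P : Subgroup R), Commute (g ^ m) x := by
      refine c.centralizes he2 P.2 hc ?_ (pow_mem hg m)
      rw [← pow_two]
      exact sq_eq_one_of_exp_two S c.exp (k := a) (by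
        rw [orderOf_pow, ham, Nat.gcd_mul_left_left]
        exact Nat.mul_div_cancel _ (Nat.pos_of_ne_zero fun h => hm2 (by rw [h]; exact dvd_zero 2)))
    have hgm : φ ⟨g, hg⟩ ^ m = 1 := by
      rw [← map_pow, ← MonoidHom.mem_ker, hker, Subgroup.mem_subgroupOf, Subgroup.coe_pow]
      exact Subgroup.mem_centralizer_iff.2 fun x hx => ((h2 x hx).eq).symm
    obtain ⟨k, hk⟩ := IsPGroup.iff_card.1 P.2
    have hPker : ∀ x : Subgroup.normalizer ((P : Subgroup R) : Set R),
        (x : R) ∈ (P : Subgroup R) → φ x = 1 := fun x hx => by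
      rw [← MonoidHom.mem_ker, hker, Subgroup.mem_subgroupOf]
      exact Subgroup.mem_centralizer_iff.2 fun y hy => (hc y hy x hx).eq
    have hne : ¬ e ∣ Nat.card φ.range := by
      intro hd
      refine P.not_dvd_index (hd.trans ?_)
      rw [← Subgroup.relIndex_mul_index (Subgroup.le_normalizer (H := (P : Subgroup R))),
        ← Subgroup.index_ker]
      refine dvd_mul_of_dvd_left (Subgroup.index_dvd_of_le fun x hx => ?_) _
      exact hPker x (Subgroup.mem_subgroupOf.1 hx)
    have hdvd : orderOf (φ ⟨g, hg⟩) ∣ 2 ^ j := by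
      have h1 : orderOf (φ ⟨g, hg⟩) ∣ Nat.card φ.range :=
        Subgroup.orderOf_dvd_natCard _ ⟨_, rfl⟩
      have h3 : Nat.card φ.range ∣ Nat.card (MulAut (P : Subgroup R)) :=
        Subgroup.card_subgroup_dvd_card _
      have hA : Nat.card (MulAut (P : Subgroup R)) = Nat.totient (e ^ k) := by
        haveI := hP
        rw [IsCyclic.card_mulAut, hk]
      rcases Nat.eq_zero_or_pos k with rfl | hk0
      · rw [pow_zero, Nat.totient_one] at hA
        exact (h1.trans (h3.trans hA.dvd)).trans (one_dvd _)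
      rw [hA, Nat.totient_prime_pow he.out hk0, hj] at h3
      exact h1.trans ((Nat.Coprime.pow_right _
        ((he.out.coprime_iff_not_dvd.2 hne).symm)).dvd_of_dvd_mul_left h3)
    have h1 : orderOf (φ ⟨g, hg⟩) = 1 :=
      Nat.eq_one_of_dvd_coprimes (((Nat.prime_two.coprime_iff_not_dvd.2 hm2)).pow_left j)
        hdvd (orderOf_dvd_of_pow_eq_one hgm)
    have h4 := MonoidHom.mem_ker.2 (orderOf_eq_one_iff.1 h1)
    rw [hker] at h4
    exact Subgroup.mem_subgroupOf.1 h4
  obtain ⟨Q, M, hM, hMQ⟩ := Transfer.hasNormalPComplement_of_le_centralizer P hle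
  refine ⟨M, hM, ?_, ?_⟩
  · intro hd
    refine Q.not_dvd_index ?_
    rw [hMQ.index_eq_card]
    exact hd
  · obtain ⟨k, hk⟩ := IsPGroup.iff_card.1 Q.2
    exact ⟨k, hMQ.symm.index_eq_card.trans hk⟩

end Ctx

end CfsgLib.EqualOrder
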